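import Cfsg.Agent.H439.CC.Defs
import Cfsg.Agent.H360.CC.Par2
import Cfsg.Agent.H898.VZ.Gram
import Cfsg.Agent.H639.OZ.Dbl

/-!
# GRAM0: relations between the permutation characters on the parabolic subgroups (helper360)

* `mu_eq` : `mu P χ` is the conjugate of `⟨1_P^G, χ⟩`;
* `sum_mu_mul` : `∑_χ mu P χ * mu Q χ = |P \ G / Q|`;
* `sum_eq` : `∑_χ (∑_J b_J mu P_J χ) (∑_J c_J mu P_J χ) = ∑_φ (∑_J b_J mu W_J φ) (∑_J c_J mu W_J φ)`;
* `gram0` : an integral relation between the `mu (W_J) φ`, all `φ`, holds for the `mu (P_J) χ`, all `χ`.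
-/

set_option autoImplicit false
set_option linter.unusedSectionVars false

namespace Cfsg.Agent.H360.CC

open Cfsg CoxeterSystem Cfsg.Agent.ChevalleyStructure.CoxeterGeom Cfsg.Agent.Tits.Roots
  Cfsg.Agent.Nodes.Reps Cfsg.Agent.Nodes.BNOf Cfsg.Agent.Nodes.Bruhat Cfsg.Agent.Characters.Core
  Cfsg.Agent.Nodes.LeviDec Cfsg.Agent.H439.CC Cfsg.Agent.H898.VZ
open scoped ComplexConjugate

universe u

section general

variable {G : Type*} [Group G] [Finite G]

theorem mu_eq [Fintype G] (P : Subgroup G) (χ : IrrCharacter G) : mu P (χ : G → ℂ) = conj (classInner (pc P) (χ : G → ℂ)) := by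
  classical
  have := Fintype.ofFinite P
  unfold pc mu
  rw [S0150.classInner_indFun P _ _ (fun g h => isIrr_isClassFunction χ.2 g h), classInner_def, map_mul, map_sum,
    map_inv₀, Complex.conj_natCast, finsum_eq_sum_of_fintype]
  congr 1
  refine Finset.sum_congr rfl fun x _ => ?_
  simp

/-- `mu` is a natural number -/
theorem mu_nat (P : Subgroup G) (χ : IrrCharacter G) : ∃ m : ℕ, mu P (χ : G → ℂ) = m := by
  classical
  have := Fintype.ofFinite G
  have := Fintype.ofFinite P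
  obtain ⟨m, hm⟩ := H949.SubDeg.sum_eq_nat P (isIrr_isCharacter χ.2)
  refine ⟨m, ?_⟩
  unfold mu
  rw [finsum_eq_sum_of_fintype, hm, inv_mul_cancel_left₀]
  exact_mod_cast Nat.card_pos.ne'

theorem mu_eq' [Fintype G] (P : Subgroup G) (χ : IrrCharacter G) : classInner (pc P) (χ : G → ℂ) = mu P (χ : G → ℂ) := by
  obtain ⟨m, hm⟩ := mu_nat P χ
  have h := mu_eq P χ
  rw [hm] at h ⊢
  rw [← Complex.conj_conj (classInner (pc P) (χ : G → ℂ)), ← h, Complex.conj_natCast]

/-- `∑_χ mu P χ * mu Q χ = |P \ G / Q|` -/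
theorem sum_mu_mul [Fintype (IrrCharacter G)] (P Q : Subgroup G) :
    ∑ χ : IrrCharacter G, mu P (χ : G → ℂ) * mu Q (χ : G → ℂ) =
      (Nat.card (DoubleCoset.Quotient (P : Set G) (Q : Set G)) : ℂ) := by
  classical
  have := Fintype.ofFinite G
  rw [← pc_inner, classInner_eq_sum (isCharacter_isClassFunction (pc_isCharacter P))
    (isCharacter_isClassFunction (pc_isCharacter Q))]
  refine Finset.sum_congr rfl fun χ _ => ?_
  rw [mu_eq', mu_eq']
  obtain ⟨m, hm⟩ := mu_nat Q χ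
  rw [hm, Complex.conj_natCast]

end general

variable {I W : Type*} {Y : Type u} [Fintype I] [DecidableEq I] [Group W] [Group Y] {M : CoxeterMatrix I}
  {cs : CoxeterSystem M W} {A : I → I → ℤ} {h : IsCartan M A} {p : ℕ} {T : Subgroup Y} {n : I → Y}
  {X : (I → ℤ) → Subgroup Y}

/-- **the double cosets of the parabolic subgroups** -/
theorem card_dbl_top [Finite W] (R : RGD cs h p T n X) (hG : GG cs h T X = ⊤) (K K' : Set I) :
    Nat.card (DoubleCoset.Quotient (PJ cs h T X K : Set Y) (PJ cs h T X K' : Set Y)) =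
      Nat.card (DoubleCoset.Quotient (WJ cs K : Set W) (WJ cs K' : Set W)) := by
  have hf : ∀ a b : Y,
      DoubleCoset.setoid (PJ cs h T X K : Set Y) (PJ cs h T X K' : Set Y) a b ↔
      DoubleCoset.setoid (WJ cs K : Set W) (WJ cs K' : Set W) (H639.OZ.cw R hG a) (H639.OZ.cw R hG b) := by
    intro a b
    rw [DoubleCoset.rel_iff, DoubleCoset.rel_iff]
    exact H639.OZ.exists_dbl_iff R hG (K := K) (K' := K') (g := a) (g' := b)
  refine Nat.card_congr (Equiv.ofBijective (Quotient.map (H639.OZ.cw R hG) fun a b h => (hf a b).1 h) ⟨?_, ?_⟩)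
  · intro a b
    induction a using Quotient.inductionOn with
    | _ a =>
    induction b using Quotient.inductionOn with
    | _ b =>
    intro h
    exact Quotient.sound ((hf a b).2 (Quotient.exact h))
  · intro w
    induction w using Quotient.inductionOn with
    | _ w =>
    obtain ⟨g, hg⟩ := exists_rp cs R.nsys w
    refine ⟨Quotient.mk _ g, ?_⟩
    show Quotient.mk _ (H639.OZ.cw R hG g) = Quotient.mk _ w
    congr 1
    exact H639.OZ.cw_eq R hG (cell_of_rp hg)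

/-- the Gram matrices agree -/
theorem sum_eq [Finite W] [Finite Y] [Fintype (IrrCharacter Y)] [Fintype (IrrCharacter W)] (R : RGD cs h p T n X)
    (hG : GG cs h T X = ⊤) {ι κ : Type*} [Fintype ι] [Fintype κ] (b : ι → ℂ) (J : ι → Set I) (c : κ → ℂ)
    (K : κ → Set I) :
    ∑ χ : IrrCharacter Y, (∑ i, b i * mu (PJ cs h T X (J i)) (χ : Y → ℂ)) * (∑ j, c j * mu (PJ cs h T X (K j)) (χ : Y → ℂ)) =
      ∑ φ : IrrCharacter W, (∑ i, b i * mu (WJ cs (J i)) (φ : W → ℂ)) * (∑ j, c j * mu (WJ cs (K j)) (φ : W → ℂ)) := by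
  have e1 : ∀ χ : IrrCharacter Y, (∑ i, b i * mu (PJ cs h T X (J i)) (χ : Y → ℂ)) *
      (∑ j, c j * mu (PJ cs h T X (K j)) (χ : Y → ℂ)) =
      ∑ i, ∑ j, (b i * c j) * (mu (PJ cs h T X (J i)) (χ : Y → ℂ) * mu (PJ cs h T X (K j)) (χ : Y → ℂ)) := by
    intro χ
    rw [Finset.sum_mul_sum]
    exact Finset.sum_congr rfl fun i _ => Finset.sum_congr rfl fun j _ => by ring
  have e2 : ∀ φ : IrrCharacter W, (∑ i, b i * mu (WJ cs (J i)) (φ : W → ℂ)) *
      (∑ j, c j * mu (WJ cs (K j)) (φ : W → ℂ)) =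
      ∑ i, ∑ j, (b i * c j) * (mu (WJ cs (J i)) (φ : W → ℂ) * mu (WJ cs (K j)) (φ : W → ℂ)) := by
    intro φ
    rw [Finset.sum_mul_sum]
    exact Finset.sum_congr rfl fun i _ => Finset.sum_congr rfl fun j _ => by ring
  rw [Finset.sum_congr rfl fun χ _ => e1 χ, Finset.sum_congr rfl fun φ _ => e2 φ, Finset.sum_comm,
    Finset.sum_comm (s := (Finset.univ : Finset (IrrCharacter W)))]
  refine Finset.sum_congr rfl fun i _ => ?_
  rw [Finset.sum_comm, Finset.sum_comm (s := (Finset.univ : Finset (IrrCharacter W)))]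
  refine Finset.sum_congr rfl fun j _ => ?_
  rw [← Finset.mul_sum, ← Finset.mul_sum, sum_mu_mul, sum_mu_mul, card_dbl_top R hG]

/-- **GRAM0** -/
theorem gram0 [Finite W] [Finite Y] (R : RGD cs h p T n X) (hgen : RGD.B cs h T X ⊔ NN cs R.nsys = ⊤)
    {ι : Type*} [Fintype ι] (b : ι → ℝ) (J : ι → Set I)
    (h0 : ∀ φ : IrrCharacter W, ∑ i, (b i : ℂ) * mu (WJ cs (J i)) (φ : W → ℂ) = 0) (χ : IrrCharacter Y) :
    ∑ i, (b i : ℂ) * mu (PJ cs h T X (J i)) (χ : Y → ℂ) = 0 := by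
  classical
  have hfY : Finite (IrrCharacter Y) := finite_irr
  have hfW : Finite (IrrCharacter W) := finite_irr
  have := Fintype.ofFinite (IrrCharacter Y)
  have := Fintype.ofFinite (IrrCharacter W)
  have h1 := sum_eq R (GG_eq_top R hgen) (fun i => (b i : ℂ)) J (fun i => (b i : ℂ)) J
  have hW : ∑ φ : IrrCharacter W, (∑ i, (b i : ℂ) * mu (WJ cs (J i)) (φ : W → ℂ)) *
      (∑ j, (b j : ℂ) * mu (WJ cs (J j)) (φ : W → ℂ)) = 0 :=
    Finset.sum_eq_zero fun φ _ => by rw [h0 φ, mul_zero]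
  rw [hW] at h1
  -- the terms are real
  choose m hm using fun (χ : IrrCharacter Y) (i : ι) => mu_nat (PJ cs h T X (J i)) χ
  have h2 : ∀ χ : IrrCharacter Y, ∑ i, (b i : ℂ) * mu (PJ cs h T X (J i)) (χ : Y → ℂ) =
      ((∑ i, b i * m χ i : ℝ) : ℂ) := by
    intro χ
    push_cast
    exact Finset.sum_congr rfl fun i _ => by rw [hm χ i]
  have hY : ∑ χ : IrrCharacter Y, (∑ i, (b i : ℂ) * mu (PJ cs h T X (J i)) (χ : Y → ℂ)) *
      (∑ j, (b j : ℂ) * mu (PJ cs h T X (J j)) (χ : Y → ℂ)) =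
      ((∑ χ : IrrCharacter Y, (∑ i, b i * m χ i : ℝ) * (∑ i, b i * m χ i : ℝ) : ℝ) : ℂ) := by
    rw [Complex.ofReal_sum]
    exact Finset.sum_congr rfl fun χ _ => by rw [h2 χ, ← Complex.ofReal_mul]
  rw [hY, Complex.ofReal_eq_zero, Finset.sum_eq_zero_iff_of_nonneg fun χ _ => mul_self_nonneg _] at h1
  rw [h2 χ, mul_self_eq_zero.1 (h1 χ (Finset.mem_univ χ)), Complex.ofReal_zero]

end Cfsg.Agent.H360.CC
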