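import Cfsg.Agent.H949.SubInv
import Cfsg.Agent.H687.Gen
import Cfsg.Agent.H687.Good
import Cfsg.Agent.Characters.Central

/-!
# Parity of the multiplicity of the principal series, abstract form (helper360)

`Y` a finite group, `U, T ≤ B = T U`, `T` normalizes `U`, every `y` is `u k b` with `k⁻¹ T k ≤ B`.

* `sum_mul_T` : `∑_{u ∈ U} χ(t u) = ∑_{u ∈ U} χ(u)` for `t ∈ T` and every constituent `χ` of `1_B^Y`;
* `card_mul_sum` : `|U| ∑_B χ = |B| ∑_U χ`;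
* `parity_abs` : a `2`-group of automorphisms fixing all `B`-double cosets and normalizing `U`, without fixed points in
  `U \ {1}`, `|U|` odd: the multiplicity `⟨χ_B, 1⟩` is congruent to `χ(1)` modulo 2.
-/

set_option autoImplicit false

namespace Cfsg.Agent.H360.CC

open Cfsg

universe u

variable {Y : Type u} [Group Y] [Finite Y]

section torus

variable {U T B : Subgroup Y} {χ : Y → ℂ}

/-- **The torus acts trivially on the `U`-fixed vectors of a constituent of `1_B^Y`.** -/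
theorem sum_mul_T [Fintype B] [Fintype U] (hTU : ∀ t ∈ T, ∀ u ∈ U, t * u * t⁻¹ ∈ U)
    (hform : ∀ y : Y, ∃ u ∈ U, ∃ k : Y, (∀ t ∈ T, k⁻¹ * t * k ∈ B) ∧ ∃ b ∈ B, y = u * k * b)
    (hχ : IsIrrCharacter Y χ) (h0 : ∑ b : B, χ b ≠ 0) {t : Y} (ht : t ∈ T) :
    ∑ u : U, χ (t * u) = ∑ u : U, χ u := by
  classical
  have := Fintype.ofFinite Y
  have hcl := Characters.Core.isIrr_isClassFunction hχ
  have hY : (Nat.card Y : ℂ) ≠ 0 := by exact_mod_cast Nat.card_pos.ne'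
  have hχ1 := Characters.Core.isIrr_apply_one_ne_zero hχ
  -- the double sum
  have key : ∀ s : Y, ∑ y : Y, ∑ b : B, ∑ u : U, χ (y * b * y⁻¹ * (s * u)) =
      (Nat.card Y : ℂ) / χ 1 * (∑ b : B, χ b) * ∑ u : U, χ (s * u) := by
    intro s
    rw [Finset.sum_comm]
    have h1 : ∀ b : B, ∑ y : Y, ∑ u : U, χ (y * b * y⁻¹ * (s * u)) =
        (Nat.card Y : ℂ) / χ 1 * χ b * ∑ u : U, χ (s * u) := by
      intro b
      rw [Finset.sum_comm, Finset.mul_sum]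
      refine Finset.sum_congr rfl fun u _ => ?_
      rw [Characters.Central.sum_char_conj_mul hχ]
      ring
    rw [Finset.sum_congr rfl fun b _ => h1 b, ← Finset.sum_mul, ← Finset.mul_sum]
  -- the inner sum is independent of `t`
  have hin : ∀ y : Y, ∑ b : B, ∑ u : U, χ (y * b * y⁻¹ * (t * u)) = ∑ b : B, ∑ u : U, χ (y * b * y⁻¹ * (1 * u)) := by
    intro y
    obtain ⟨u₀, hu₀, k, hk, b₀, hb₀, rfl⟩ := hform y
    -- both are equal to the sum for `k`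
    have hred : ∀ s ∈ T, ∑ b : B, ∑ u : U, χ (u₀ * k * b₀ * b * (u₀ * k * b₀)⁻¹ * (s * u)) =
        ∑ b : B, ∑ u : U, χ (k * b * k⁻¹ * u) := by
      intro s hs
      -- replace `b`
      have e1 : ∑ b : B, ∑ u : U, χ (u₀ * k * b₀ * b * (u₀ * k * b₀)⁻¹ * (s * u)) =
          ∑ b : B, ∑ u : U, χ (u₀ * k * b * k⁻¹ * u₀⁻¹ * (s * u)) := by
        refine Fintype.sum_equiv (MulAut.conj (⟨b₀, hb₀⟩ : B)).toEquiv _ _ fun b => ?_
        refine Finset.sum_congr rfl fun u _ => ?_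
        congr 1
        show u₀ * k * b₀ * (b : Y) * (u₀ * k * b₀)⁻¹ * (s * u) =
          u₀ * k * (b₀ * (b : Y) * b₀⁻¹) * k⁻¹ * u₀⁻¹ * (s * u)
        group
      -- move `u₀`
      have hc1 : s⁻¹ * u₀⁻¹ * s ∈ U := by
        have := hTU s⁻¹ (inv_mem hs) u₀⁻¹ (inv_mem hu₀)
        rwa [inv_inv] at this
      have e2 : ∀ b : B, ∑ u : U, χ (u₀ * k * b * k⁻¹ * u₀⁻¹ * (s * u)) = ∑ u : U, χ (k * b * k⁻¹ * (s * u)) := by
        intro b
        refine Fintype.sum_equiv ((Equiv.mulLeft (⟨_, hc1⟩ : U)).trans (Equiv.mulRight (⟨u₀, hu₀⟩ : U))) _ _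
          fun u => ?_
        show χ (u₀ * k * b * k⁻¹ * u₀⁻¹ * (s * u)) = χ (k * b * k⁻¹ * (s * (s⁻¹ * u₀⁻¹ * s * (u : Y) * u₀)))
        rw [← hcl (k * b * k⁻¹ * (s * (s⁻¹ * u₀⁻¹ * s * (u : Y) * u₀))) u₀]
        congr 1
        group
      -- move `s`
      have e3 : ∀ b : B, ∑ u : U, χ (k * b * k⁻¹ * (s * u)) = ∑ u : U, χ (k * (b * (k⁻¹ * s * k)) * k⁻¹ * u) := by
        intro b
        refine Finset.sum_congr rfl fun u _ => ?_
        congr 1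
        group
      rw [e1, Finset.sum_congr rfl fun b _ => (e2 b).trans (e3 b)]
      exact Fintype.sum_equiv (Equiv.mulRight (⟨k⁻¹ * s * k, hk s hs⟩ : B)) _ _ fun b => rfl
    rw [hred t ht, hred 1 (one_mem T)]
  have h1 := key t
  have h2 := key 1
  rw [Finset.sum_congr rfl fun y _ => hin y, h2] at h1
  have h3 : (Nat.card Y : ℂ) / χ 1 * (∑ b : B, χ b) ≠ 0 := mul_ne_zero (div_ne_zero hY hχ1) h0
  have h4 := mul_left_cancel₀ h3 h1
  rw [← h4]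
  simp only [one_mul]

/-- `|U| ∑_B χ = |B| ∑_U χ` -/
theorem card_mul_sum [Fintype B] [Fintype U] (hUB : U ≤ B)
    (hB : ∀ b ∈ B, ∃ t ∈ T, ∃ u ∈ U, b = t * u) (hTU : ∀ t ∈ T, ∀ u ∈ U, t * u * t⁻¹ ∈ U)
    (hform : ∀ y : Y, ∃ u ∈ U, ∃ k : Y, (∀ t ∈ T, k⁻¹ * t * k ∈ B) ∧ ∃ b ∈ B, y = u * k * b)
    (hχ : IsIrrCharacter Y χ) (h0 : ∑ b : B, χ b ≠ 0) :
    (Nat.card U : ℂ) * ∑ b : B, χ b = (Nat.card B : ℂ) * ∑ u : U, χ u := by
  classical
  have h1 : ∑ b : B, ∑ u : U, χ (b * u) = (Nat.card B : ℂ) * ∑ u : U, χ u := by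
    have h2 : ∀ b : B, ∑ u : U, χ (b * u) = ∑ u : U, χ u := by
      rintro ⟨b, hb⟩
      obtain ⟨t, ht, u₀, hu₀, rfl⟩ := hB b hb
      rw [← sum_mul_T hTU hform hχ h0 ht]
      refine Fintype.sum_equiv (Equiv.mulLeft (⟨u₀, hu₀⟩ : U)) _ _ fun u => ?_
      show χ (t * u₀ * u) = χ (t * (u₀ * (u : Y)))
      rw [mul_assoc]
    rw [Finset.sum_congr rfl fun b _ => h2 b, Finset.sum_const, nsmul_eq_mul, Finset.card_univ,
      Nat.card_eq_fintype_card]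
  have h2 : ∑ b : B, ∑ u : U, χ (b * u) = (Nat.card U : ℂ) * ∑ b : B, χ b := by
    rw [Finset.sum_comm]
    have h3 : ∀ u : U, ∑ b : B, χ (b * u) = ∑ b : B, χ b := by
      intro u
      exact Fintype.sum_equiv (Equiv.mulRight (⟨u, hUB u.2⟩ : B)) _ _ fun b => rfl
    rw [Finset.sum_congr rfl fun u _ => h3 u, Finset.sum_const, nsmul_eq_mul, Finset.card_univ,
      Nat.card_eq_fintype_card]
  rw [← h2, h1]

end torus

/-- the sum over `U` is congruent to the degree modulo 2 -/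
theorem sum_U {χ : Y → ℂ} (hχ : IsIrrCharacter Y χ) (U : Subgroup Y) [Fintype U] {E : Type*} [Group E]
    (hE : IsPGroup 2 E) (f : E →* MulAut Y) (hU : ∀ e, ∀ u ∈ U, f e u ∈ U)
    (hinv : ∀ e, ∀ u ∈ U, χ (f e u) = χ u) (hfix : ∀ u ∈ U, (∀ e, f e u = u) → u = 1) :
    ∃ z : ℂ, IsIntegral ℤ z ∧ ∑ u : U, χ u = χ 1 + 2 * z := by
  classical
  have : Fact (Nat.Prime 2) := ⟨Nat.prime_two⟩
  let act : MulAction f.range U :=
    { smul := fun a u => ⟨(a : MulAut Y) u, by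
        obtain ⟨e, he⟩ := a.2
        rw [← he]; exact hU e u u.2⟩
      one_smul := fun u => rfl
      mul_smul := fun a b u => rfl }
  have hP : IsPGroup 2 f.range := by
    intro a
    obtain ⟨e, he⟩ := a.2
    obtain ⟨k, hk⟩ := hE e
    refine ⟨k, Subtype.ext ?_⟩
    rw [Subgroup.coe_pow, ← he, ← map_pow, hk, map_one]
    rfl
  obtain ⟨z, hz, hs⟩ := H687.sum_fixed hP (fun u : U => χ u) (fun a u => by
    obtain ⟨e, he⟩ := a.2
    show χ ((a : MulAut Y) u) = χ u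
    rw [← he]
    exact hinv e u u.2) (fun u => Blocks.Central.isIntegral_irr hχ _)
  refine ⟨z, hz, ?_⟩
  rw [hs, Nat.cast_ofNat]
  congr 1
  rw [Finset.sum_eq_single (1 : U)]
  · rw [if_pos]
    · rfl
    · intro a
      apply Subtype.ext
      show (a : MulAut Y) (1 : Y) = 1
      exact map_one _
  · intro u _ hu
    rw [if_neg]
    intro h1
    apply hu
    apply Subtype.ext
    refine hfix u u.2 fun e => ?_
    exact congrArg Subtype.val (h1 ⟨f e, e, rfl⟩)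
  · intro h1
    exact absurd (Finset.mem_univ _) h1

/-- **Parity.** -/
theorem parity_abs {U T B : Subgroup Y} [Fintype B] (hUB : U ≤ B)
    (hB : ∀ b ∈ B, ∃ t ∈ T, ∃ u ∈ U, b = t * u) (hTU : ∀ t ∈ T, ∀ u ∈ U, t * u * t⁻¹ ∈ U)
    (hform : ∀ y : Y, ∃ u ∈ U, ∃ k : Y, (∀ t ∈ T, k⁻¹ * t * k ∈ B) ∧ ∃ b ∈ B, y = u * k * b)
    {E : Type*} [Group E] (hE : IsPGroup 2 E) (f : E →* MulAut Y) (hU : ∀ e, ∀ u ∈ U, f e u ∈ U)
    (hfix : ∀ u ∈ U, (∀ e, f e u = u) → u = 1) (hodd : ¬ 2 ∣ Nat.card U)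
    (hdc : ∀ e, ∀ g, ∃ a ∈ B, ∃ b ∈ B, f e g = a * g * b)
    {χ : Y → ℂ} (hχ : IsIrrCharacter Y χ) (h0 : ∑ b : B, χ b ≠ 0) :
    ∃ m : ℕ, ∑ b : B, χ b = (Nat.card B : ℂ) * m ∧ (2 ∣ charDegree χ ↔ 2 ∣ m) := by
  classical
  have := Fintype.ofFinite U
  have := Fintype.ofFinite Y
  obtain ⟨m, hm⟩ := H949.SubDeg.sum_eq_nat B (Characters.Core.isIrr_isCharacter hχ)
  refine ⟨m, hm, ?_⟩
  have hBc : (Nat.card B : ℂ) ≠ 0 := by exact_mod_cast Nat.card_pos.ne'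
  have h1 := card_mul_sum hUB hB hTU hform hχ h0
  rw [hm] at h1
  have h2 : (Nat.card U : ℂ) * m = ∑ u : U, χ u := by
    apply mul_left_cancel₀ hBc
    rw [← h1]
    ring
  obtain ⟨z, hz, h3⟩ := sum_U hχ U hE f hU
    (fun e u _ => H949.SubInv.inv_of_dc B hχ h0 (f e) (hdc e) u) hfix
  rw [← h2, H687.charDegree_eq (Characters.Core.isIrr_isCharacter hχ)] at h3
  -- `z` is a rational integer
  have h4 : z = ((((Nat.card U * m : ℕ) : ℤ) - (charDegree χ : ℤ) : ℚ) / 2 : ℚ) := by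
    push_cast
    linear_combination (-1 / 2 : ℂ) * h3
  rw [h4] at hz
  have h5 : IsIntegral ℤ ((((Nat.card U * m : ℕ) : ℤ) - (charDegree χ : ℤ) : ℚ) / 2 : ℚ) := by
    rw [← eq_ratCast (algebraMap ℚ ℂ)] at hz
    exact (isIntegral_algebraMap_iff (algebraMap ℚ ℂ).injective).1 hz
  obtain ⟨k, hk⟩ := IsIntegrallyClosed.isIntegral_iff.1 h5
  have hk' : (k : ℚ) = (((Nat.card U * m : ℕ) : ℤ) - (charDegree χ : ℤ) : ℚ) / 2 := by simpa using hk
  have h6 : 2 * k = ((Nat.card U * m : ℕ) : ℤ) - (charDegree χ : ℤ) := by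
    have h7 : (2 * k : ℚ) = ((Nat.card U * m : ℕ) : ℤ) - (charDegree χ : ℤ) := by rw [hk']; ring
    exact_mod_cast h7
  have h7 : 2 ∣ Nat.card U * m ↔ 2 ∣ m := by
    rw [Nat.prime_two.dvd_mul]
    exact ⟨fun h => h.resolve_left hodd, Or.inr⟩
  rw [← h7]
  omega

end Cfsg.Agent.H360.CC
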